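import Cfsg.Agent.H296.FFourPar
import Cfsg.Agent.H129.Tor
import Cfsg.Agent.S1035
import Cfsg.Agent.H299.Cons

/-!
# `F₄(q)`, `q = 2 ^ f > 2`, `f` odd: no element of order 3 with centralizer `(odd) × Sp₆(2)` (helper296)
-/

set_option autoImplicit false
set_option linter.unusedSectionVars false

namespace Cfsg.Agent.H296.FFourIn

open CoxeterSystem Cfsg.Agent.ChevalleyStructure.CoxeterGeom Cfsg.Agent.Tits.Roots Cfsg.Agent.Tits.Core
  Cfsg.Agent.Tits.RootComb Cfsg.Agent.Nodes.Comb Cfsg.Agent.Nodes.Reps Cfsg.Agent.Nodes.BNOf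
  Cfsg.Agent.Nodes.StabComb Cfsg.Agent.Nodes.Bruhat Cfsg.Agent.Nodes.LeviDec Cfsg.Agent.Nodes.NormalForm
open Cfsg.Lie Cfsg.Agent.ChevalleyStructure Cfsg.Agent.ChevalleyStructure.Elts
  Cfsg.Agent.ChevalleyStructure.RootVec Cfsg.Agent.ChevalleyStructure.RootVecTab
  Cfsg.Agent.ChevalleyStructure.NPerm Cfsg.Agent.ChevalleyStructure.CoxeterGeomTypes
open Cfsg.Agent.Nodes Cfsg.Agent.Nodes.RGDChev
open Cfsg.Agent.SigZero.FFourTwo
open scoped commutatorElement

universe u

/-! ### tables -/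

theorem tabA : ∀ s < 48, 0 ≤ vec chevF4 4 s 3 → s = 47 ∨ (s ≠ chevF4.neg 47 ∧
    ((chevF4.commTerms 47 s).all fun c => c.2.1 % 2 == 0) = true) := by decide +kernel

theorem tabB : ∀ s < 48, 0 ≤ vec chevF4 4 s 0 → s = 44 ∨ (s ≠ chevF4.neg 44 ∧
    ((chevF4.commTerms 44 s).all fun c => c.2.1 % 2 == 0) = true) := by decide +kernel

theorem invLD : LD.map inv = [0, 1, 1, 1, 2, 2, 2, 2, 3, 3, 3, 4] := by decide +kernel

theorem invLE : LE.map inv = [0, 1, 1, 1, 2, 2, 2, 2, 3, 3, 3, 4] := by decide +kernel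

section Arith

theorem pow_mod_five {f : ℕ} (hf : Odd f) : 2 ^ f % 5 = 2 ∨ 2 ^ f % 5 = 3 := by
  obtain ⟨k, rfl⟩ := hf
  induction k with
  | zero => left; norm_num
  | succ k ih =>
    have h1 : 2 ^ (2 * (k + 1) + 1) = 4 * 2 ^ (2 * k + 1) := by ring
    rw [h1]
    generalize 2 ^ (2 * k + 1) = m at ih ⊢
    omega

theorem pow_mod_three {f : ℕ} (hf : Odd f) : 2 ^ f % 3 = 2 := by
  obtain ⟨k, rfl⟩ := hf
  induction k with
  | zero => norm_num
  | succ k ih =>
    have h1 : 2 ^ (2 * (k + 1) + 1) = 4 * 2 ^ (2 * k + 1) := by ring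
    rw [h1]
    generalize 2 ^ (2 * k + 1) = m at ih ⊢
    omega

theorem not_dvd_sub {f : ℕ} (hf : Odd f) : ¬ 2 ∣ 2 ^ f - 1 ∧ ¬ 3 ∣ 2 ^ f - 1 ∧ ¬ 5 ∣ 2 ^ f - 1 := by
  have h0 : f ≠ 0 := by rintro rfl; simp at hf
  have h1 := pow_mod_five hf
  have h2 := pow_mod_three hf
  have h3 : 2 ∣ 2 ^ f := dvd_pow_self _ h0
  have h4 : 0 < 2 ^ f := by positivity
  refine ⟨?_, ?_, ?_⟩ <;> omega

theorem sum_list (q : ℕ) (L : List (List (Fin 4))) (hL : L.map inv = [0, 1, 1, 1, 2, 2, 2, 2, 3, 3, 3, 4]) :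
    (L.map fun ω => q ^ inv ω).sum = 1 + 3 * q + 4 * q ^ 2 + 3 * q ^ 3 + q ^ 4 := by
  have h1 : (L.map fun ω => q ^ inv ω) = (L.map inv).map fun k => q ^ k := by
    rw [List.map_map]
    rfl
  rw [h1, hL]
  simp only [List.map_cons, List.map_nil, List.sum_cons, List.sum_nil, pow_zero, pow_one]
  ring

theorem not_five_sum {q : ℕ} (hq : q % 5 = 2 ∨ q % 5 = 3) : ¬ 5 ∣ 1 + 3 * q + 4 * q ^ 2 + 3 * q ^ 3 + q ^ 4 := by
  intro h
  have h1 : (1 + 3 * q + 4 * q ^ 2 + 3 * q ^ 3 + q ^ 4) % 5 = 0 := Nat.mod_eq_zero_of_dvd h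
  rcases hq with hq | hq
  · simp [Nat.add_mod, Nat.mul_mod, Nat.pow_mod, hq] at h1
  · simp [Nat.add_mod, Nat.mul_mod, Nat.pow_mod, hq] at h1

end Arith

section Scal

variable {K : Type u} [Field K]

/-- the group of elements acting on `X_r` by a scalar -/
def scal (K : Type u) [Field K] (r : ℕ) : Subgroup (GL chevF4.Idx K) where
  carrier := {g | ∃ c : K, c ≠ 0 ∧ ∀ a, g * xG isType.inList r a * g⁻¹ = xG isType.inList r (c * a)}
  one_mem' := ⟨1, one_ne_zero, fun a => by rw [one_mul, one_mul, inv_one, mul_one]⟩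
  mul_mem' := by
    rintro g g' ⟨c, hc, h⟩ ⟨c', hc', h'⟩
    refine ⟨c * c', mul_ne_zero hc hc', fun a => ?_⟩
    have e : g * g' * xG isType.inList r a * (g * g')⁻¹ = g * (g' * xG isType.inList r a * g'⁻¹) * g⁻¹ := by group
    rw [e, h', h, mul_assoc]
  inv_mem' := by
    rintro g ⟨c, hc, h⟩
    refine ⟨c⁻¹, inv_ne_zero hc, fun a => ?_⟩
    have h1 := h (c⁻¹ * a)
    rw [mul_inv_cancel_left₀ hc] at h1
    rw [← h1]
    group

theorem mem_scal {r : ℕ} {g : GL chevF4.Idx K} : g ∈ scal K r ↔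
    ∃ c : K, c ≠ 0 ∧ ∀ a, g * xG isType.inList r a * g⁻¹ = xG isType.inList r (c * a) := Iff.rfl

theorem pow_scal {r : ℕ} {g : GL chevF4.Idx K} {c : K}
    (h : ∀ a, g * xG isType.inList r a * g⁻¹ = xG isType.inList r (c * a)) (n : ℕ) (a : K) :
    g ^ n * xG isType.inList r a * (g ^ n)⁻¹ = xG isType.inList r (c ^ n * a) := by
  induction n generalizing a with
  | zero => rw [pow_zero, pow_zero, one_mul, one_mul, inv_one, mul_one]
  | succ n ih =>
    have e : g ^ (n + 1) * xG isType.inList r a * (g ^ (n + 1))⁻¹ =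
        g ^ n * (g * xG isType.inList r a * g⁻¹) * (g ^ n)⁻¹ := by
      rw [pow_succ]
      group
    rw [e, h, ih, pow_succ, mul_assoc]

theorem comm_of_scal [Fintype K] {r : ℕ} (hr : r < 48) {g : GL chevF4.Idx K} (hg : g ∈ scal K r) {n : ℕ}
    (hn : g ^ n = 1) (hco : Nat.Coprime n (Fintype.card K - 1)) (a : K) :
    g * xG isType.inList r a = xG isType.inList r a * g := by
  obtain ⟨c, hc, h⟩ := hg
  have h1 := pow_scal h n 1
  rw [hn, one_mul, inv_one, mul_one, mul_one] at h1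
  have h2 : c ^ n = 1 := (xG_injective isType.inList (F := K) (r := r) hr h1).symm
  have h3 : c ^ (Fintype.card K - 1) = 1 := FiniteField.pow_card_sub_one_eq_one c hc
  have h4 : orderOf c ∣ Nat.gcd n (Fintype.card K - 1) :=
    Nat.dvd_gcd (orderOf_dvd_of_pow_eq_one h2) (orderOf_dvd_of_pow_eq_one h3)
  rw [hco, Nat.dvd_one, orderOf_eq_one_iff] at h4
  have h5 := h a
  rw [h4, one_mul] at h5
  exact mul_inv_eq_iff_eq_mul.1 h5

variable [CharP K 2]

theorem comm_of_even {r s : ℕ} (hr : r < 48) (hs : s < 48) (hrs : s ≠ r) (hneg : s ≠ chevF4.neg r)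
    (he : ((chevF4.commTerms r s).all fun c => c.2.1 % 2 == 0) = true) (u t : K) :
    xG isType.inList s u * xG isType.inList r t = xG isType.inList r t * xG isType.inList s u := by
  have e : ⁅xG isType.inList s u, xG isType.inList r t⁆ = wordG isType.inList (chevF4.commWord K r s (-t) (-u)) := by
    rw [← comm_xG isType hr hs hrs hneg, xG_inv, xG_inv, _root_.neg_neg, _root_.neg_neg]
  have h1 : wordG isType.inList (chevF4.commWord K r s (-t) (-u)) = 1 := by
    rw [← Subgroup.mem_bot]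
    refine wordG_mem isType _ _ ?_
    intro c hc
    have hc' : c ∈ (chevF4.commTerms r s).map fun c => (c.1, (c.2.1 : K) * (- -t) ^ c.2.2.1 * (-u) ^ c.2.2.2) := hc
    rw [List.mem_map] at hc'
    obtain ⟨⟨v, C, i, j⟩, hv, rfl⟩ := hc'
    have h2 := List.all_eq_true.1 he _ hv
    rw [beq_iff_eq] at h2
    obtain ⟨k, hk⟩ := Int.dvd_of_emod_eq_zero h2
    have h3 : ((C : ℤ) : K) = 0 := by
      have hk' : C = 2 * k := hk
      rw [hk']
      push_cast
      rw [CharTwo.two_eq_zero, zero_mul]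
    rw [Subgroup.mem_bot]
    show xG isType.inList v (((C : ℤ) : K) * (- -t) ^ i * (-u) ^ j) = 1
    rw [h3, zero_mul, zero_mul, xG_zero]
  rw [h1] at e
  exact commutatorElement_eq_one_iff_mul_comm.1 e

theorem root_le_scal {r s : ℕ} (hr : r < 48) (hs : s < 48) (h : s = r ∨ (s ≠ chevF4.neg r ∧
    ((chevF4.commTerms r s).all fun c => c.2.1 % 2 == 0) = true)) :
    XV chevF4 4 K (vec chevF4 4 s) ≤ scal K r := by
  intro g hg
  rw [XV_vec isType K hs, mem_rootSubgroup_iff isType.inList] at hg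
  obtain ⟨u, rfl⟩ := hg
  refine ⟨1, one_ne_zero, fun a => ?_⟩
  rw [one_mul, mul_inv_eq_iff_eq_mul]
  by_cases hsr : s = r
  · subst hsr
    rw [xG_add, xG_add, add_comm]
  · obtain ⟨h1, h2⟩ := h.resolve_left hsr
    exact comm_of_even hr hs hsr h1 h2 u a

/-- a parabolic subgroup acts on a root group by scalars -/
theorem par_le {r : ℕ} (hr : r < 48) {i : Fin 4} {J : Set (Fin 4)} (hi : i ∉ J)
    (tab : ∀ s < 48, 0 ≤ vec chevF4 4 s i → s = r ∨ (s ≠ chevF4.neg r ∧
      ((chevF4.commTerms r s).all fun c => c.2.1 % 2 == 0) = true)) :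
    Par K J ≤ (scal K r).subgroupOf (chevF4.group K) := by
  have key : ∀ x : Fin 4 → ℤ, IsRoot CoxeterMatrix.F₄.toCoxeterSystem isType.isCartan x → 0 ≤ x i →
      (XV chevF4 4 K x).subgroupOf (chevF4.group K) ≤ (scal K r).subgroupOf (chevF4.group K) := by
    intro x hx h0
    obtain ⟨s, hs, rfl⟩ := (isRoot_iff isType _ x).1 hx
    exact Subgroup.comap_mono (root_le_scal hr hs (tab s hs h0))
  refine sup_le (sup_le ?_ ?_) ?_
  · refine Subgroup.comap_mono ?_
    intro t ht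
    obtain ⟨c, hc, -, h⟩ := Cfsg.Agent.H129.Tor.exists_c isType ht
    exact ⟨_, Finset.prod_ne_zero_iff.2 fun j hj => zpow_ne_zero _ (hc j (Finset.mem_range.1 hj)), h r hr⟩
  · refine RGD.Sup_le fun x hx => ?_
    refine key x hx.1 ?_
    rw [hx.2 i hi]
  · exact RGD.Sup_le fun x hx => key x hx.1 (hx.2.1 i)

theorem card_T [Fintype K] :
    Nat.card ↥((chevF4.diagonalSubgroup K).subgroupOf (chevF4.group K)) = (Fintype.card K - 1) ^ 4 := by
  have h1 : chevF4.diagonalSubgroup K ≤ chevF4.group K := diagonal_le_group isType.inList K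
  rw [Nat.card_congr (Subgroup.subgroupOfEquivOfLe h1).toEquiv]
  have h2 := Cfsg.Agent.S1035.result (F := K) rfl (chevF4, 1) (by simp)
  rw [one_mul] at h2
  exact h2

theorem not_five [Fintype K] {f : ℕ} (hf : Odd f) (hK : Fintype.card K = 2 ^ f) {J : List (Fin 4)}
    {L : List (List (Fin 4))} (hc : chk J L = true) (hL : L.map inv = [0, 1, 1, 1, 2, 2, 2, 2, 3, 3, 3, 4]) :
    ¬ 5 ∣ Nat.card ↥(Par K {i | i ∈ J}) := by
  have h5 : Nat.Prime 5 := by norm_num
  obtain ⟨a, ha⟩ := FFourPar.card_PJ_eq (K := K) CoxeterMatrix.F₄.toCoxeterSystem hc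
  rw [ha, card_T, Nat.card_eq_fintype_card, hK, sum_list _ _ hL]
  intro h
  rcases (Nat.Prime.dvd_mul h5).1 h with h1 | h1
  · rcases (Nat.Prime.dvd_mul h5).1 h1 with h2 | h2
    · have := h5.dvd_of_dvd_pow h2
      omega
    · exact (not_dvd_sub hf).2.2 (h5.dvd_of_dvd_pow h2)
  · exact not_five_sum (pow_mod_five hf) h1

end Scal

section Main

open Cfsg.Agent.H299

theorem coprime_of {n f : ℕ} (hn : n ∣ 1451520) (h7 : ¬ 7 ∣ n) (hf : Odd f) : Nat.Coprime n (2 ^ f - 1) := by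
  rw [Nat.coprime_comm]
  refine Nat.coprime_of_dvd fun k hk h1 h2 => ?_
  have h3 : k ∣ 1451520 := h2.trans hn
  have h4 : (1451520 : ℕ) = 2 ^ 9 * 3 ^ 4 * 5 * 7 := by norm_num
  rw [h4] at h3
  obtain ⟨a, b, c⟩ := not_dvd_sub hf
  rcases (Nat.Prime.dvd_mul hk).1 h3 with h3 | h3
  · rcases (Nat.Prime.dvd_mul hk).1 h3 with h3 | h3
    · rcases (Nat.Prime.dvd_mul hk).1 h3 with h3 | h3
      · rw [(Nat.prime_dvd_prime_iff_eq hk Nat.prime_two).1 (hk.dvd_of_dvd_pow h3)] at h1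
        exact a h1
      · rw [(Nat.prime_dvd_prime_iff_eq hk Nat.prime_three).1 (hk.dvd_of_dvd_pow h3)] at h1
        exact b h1
    · rw [(Nat.prime_dvd_prime_iff_eq hk (by norm_num)).1 h3] at h1
      exact c h1
  · rw [(Nat.prime_dvd_prime_iff_eq hk (by norm_num)).1 h3] at h2
    exact h7 h2

/-- **`F₄(q)`, `q = 2 ^ f > 2`, `f` odd.** -/
theorem f4_inner_of {F : Type} [Field F] [Fintype F] {f : ℕ} (hF : Fintype.card F = 2 ^ f) (hf : Odd f) (hf1 : f ≠ 1)
    {b : ↥(chevF4.group F)} {L : Subgroup ↥(chevF4.group F)} (h : In _ b L)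
    (hct : ∃ t ∈ L, t ≠ 1 ∧ t * t = 1 ∧ 5 ∣ Nat.card (Subgroup.centralizer ({t} : Set ↥(chevF4.group F))) ∧
      (∀ z : ↥(chevF4.group F), z * z = 1 → MulAut.conj b z = z → (∀ c ∈ L, c * t = t * c → z * c = c * z) →
        z = 1 ∨ z = t) ∧ ∀ c ∈ L, c * t = t * c → ¬ 7 ∣ orderOf c) : False := by
  classical
  have : Fact (Nat.Prime 2) := ⟨Nat.prime_two⟩
  have hf0 : f ≠ 0 := by rintro rfl; simp at hf
  have hch : CharP F 2 := charP_of_card_eq_prime_pow hF
  obtain ⟨t, htL, ht1, ht2, h5, htight, h7⟩ := hct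
  have hfin := h.fin
  have hot : orderOf t = 2 := orderOf_eq_prime (by rw [sq]; exact ht2) ht1
  have hP : IsPGroup 2 ↥(Subgroup.zpowers t) := IsPGroup.of_card (n := 1) (by rw [Nat.card_zpowers, hot, pow_one])
  obtain ⟨g, J, hJ, hN⟩ := FFourPar.exists_par hP (fun h => ht1 (Subgroup.zpowers_eq_bot.mp h))
  have hCN : Subgroup.centralizer ({t} : Set ↥(chevF4.group F)) ≤ cj g (Par F {i | i ∈ J}) := by
    refine le_trans ?_ hN
    refine le_trans ?_ (Subgroup.centralizer_le_normalizer _)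
    intro y hy
    rw [Subgroup.mem_centralizer_singleton_iff] at hy
    rw [Subgroup.mem_centralizer_iff]
    rintro _ ⟨k, rfl⟩
    exact ((Commute.zpow_right (show Commute y t from hy) k).symm).eq
  have h5' : 5 ∣ Nat.card ↥(Par F {i | i ∈ J}) := by
    have h1 := h5.trans (Subgroup.card_dvd_of_le hCN)
    rwa [Cfsg.Agent.Nodes.CardSup.card_cj] at h1
  -- the root group
  obtain ⟨r, hr, hle⟩ : ∃ r < 48, Par F {i | i ∈ J} ≤ (scal F r).subgroupOf (chevF4.group F) := by
    simp only [List.mem_cons, List.not_mem_nil, or_false] at hJ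
    rcases hJ with rfl | rfl | rfl | rfl
    · exact ⟨47, by norm_num, par_le (by norm_num) (i := 3) (by decide) tabA⟩
    · exact ⟨44, by norm_num, par_le (by norm_num) (i := 0) (by decide) tabB⟩
    · exact absurd h5' (not_five hf hF chkLD invLD)
    · exact absurd h5' (not_five hf hF chkLE invLE)
  -- the elements of the root group
  let x : F → ↥(chevF4.group F) := fun a => ⟨xG isType.inList r a, xG_mem_group isType.inList r a⟩
  have hxadd : ∀ a a', x a * x a' = x (a + a') := fun a a' => Subtype.ext (by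
    show xG isType.inList r a * xG isType.inList r a' = _
    rw [xG_add])
  have hxinj : Function.Injective x := fun a a' e => xG_injective isType.inList hr (congrArg Subtype.val e)
  have hx0 : x 0 = 1 := by
    apply Subtype.ext
    show xG isType.inList r 0 = 1
    rw [xG_zero]
  have hcomm : ∀ c : ↥(chevF4.group F), c * t = t * c → Nat.Coprime (orderOf c) (Fintype.card F - 1) →
      ∀ a, (g * x a * g⁻¹) * c = c * (g * x a * g⁻¹) := by
    intro c hct hco a
    have h1 : c ∈ Subgroup.centralizer ({t} : Set ↥(chevF4.group F)) := Subgroup.mem_centralizer_singleton_iff.2 hct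
    obtain ⟨c', hc', hcc⟩ := hCN h1
    have hcc' : g * c' * g⁻¹ = c := hcc
    have h2 := hle hc'
    rw [Subgroup.mem_subgroupOf] at h2
    have h3 : orderOf c' = orderOf c := by
      rw [← hcc']
      exact (MulEquiv.orderOf_eq (MulAut.conj g) c').symm
    have h4 : (c' : GL chevF4.Idx F) ^ orderOf c = 1 := by
      rw [← h3, ← SubgroupClass.coe_pow, pow_orderOf_eq_one]
      rfl
    have h5 : c' * x a = x a * c' := Subtype.ext (comm_of_scal hr h2 h4 hco a)
    rw [← hcc']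
    calc g * x a * g⁻¹ * (g * c' * g⁻¹) = g * (x a * c') * g⁻¹ := by group
      _ = g * (c' * x a) * g⁻¹ := by rw [h5]
      _ = _ := by group
  have hb3 : Nat.Coprime (orderOf b) (Fintype.card F - 1) := by
    rw [h.ob, hF]
    exact (Nat.Prime.coprime_iff_not_dvd Nat.prime_three).2 (not_dvd_sub hf).2.1
  have hbt : b * t = t * b := by
    have h1 := h.fix t htL
    rw [MulAut.conj_apply] at h1
    exact mul_inv_eq_iff_eq_mul.1 h1
  have key : ∀ a, g * x a * g⁻¹ = 1 ∨ g * x a * g⁻¹ = t := by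
    intro a
    refine htight _ ?_ ?_ ?_
    · calc g * x a * g⁻¹ * (g * x a * g⁻¹) = g * (x a * x a) * g⁻¹ := by group
        _ = 1 := by rw [hxadd, CharTwo.add_self_eq_zero, hx0, mul_one, mul_inv_cancel]
    · rw [MulAut.conj_apply, ← hcomm b hbt hb3 a, mul_inv_cancel_right]
    · intro c hcL hct
      refine hcomm c hct ?_ a
      rw [hF]
      refine coprime_of ?_ (h7 c hcL hct) hf
      rw [← h.facts.card]
      have h1 : orderOf c = orderOf (⟨c, hcL⟩ : ↥L) := (Subgroup.orderOf_mk c hcL).symm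
      rw [h1]
      exact orderOf_dvd_natCard _
  have hne : ∀ a, a ≠ 0 → g * x a * g⁻¹ = t := by
    intro a ha
    refine (key a).resolve_left fun h1 => ha ?_
    have h2 : x a = 1 := by
      calc x a = g⁻¹ * (g * x a * g⁻¹) * g := by group
        _ = 1 := by rw [h1]; group
    exact hxinj (by rw [h2, hx0])
  have h4 : 2 < Fintype.card F := by
    rw [hF]
    calc 2 = 2 ^ 1 := by norm_num
      _ < 2 ^ f := Nat.pow_lt_pow_right (by norm_num) (by omega)
  obtain ⟨a, ha0, ha1⟩ : ∃ a : F, a ≠ 0 ∧ a ≠ 1 := by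
    by_contra hcon
    push Not at hcon
    have h5 : (Finset.univ : Finset F) ⊆ {0, 1} := by
      intro a _
      rw [Finset.mem_insert, Finset.mem_singleton]
      by_cases h : a = 0
      · exact Or.inl h
      · exact Or.inr (hcon a h)
    have h6 := Finset.card_le_card h5
    rw [Finset.card_univ] at h6
    have h7 := Finset.card_le_two (a := (0 : F)) (b := 1)
    omega
  have h5 : g * x a * g⁻¹ = g * x 1 * g⁻¹ := by rw [hne a ha0, hne 1 one_ne_zero]
  exact ha1 (hxinj (mul_left_cancel (mul_right_cancel h5)))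

end Main

end Cfsg.Agent.H296.FFourIn
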