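import Cfsg.Agent.H296.ONCore
import Cfsg.Agent.BpTab.Final
import Cfsg.Agent.OrdDiv.Table
import Cfsg.Agent.S0000

/-!
# S4329, the row `O'N` (helper296)
-/

set_option autoImplicit false

namespace Cfsg.Agent.H296.RowON

open Cfsg Cfsg.Agent.H568

universe u

theorem row_model {p : ℕ} [hp : Fact p.Prime] (hp2 : p ≠ 2) : Row p Spor.ON := by
  have := KFacts.ON.Cent.finite_ON
  have D := BpSpor.Row.dat_on (K := Spor.ON) ⟨MulEquiv.refl _⟩
  have hs := D.simple
  refine H377.SporRow.row_of_dat D (l := [(2, 9), (3, 4), (5, 1), (7, 3), (11, 1), (19, 1), (31, 1)]) (by decide +kernel)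
    (by norm_num) ?_ hp2
  intro x hx hx2 hx3 _
  simp only [List.mem_cons, List.not_mem_nil, or_false] at hx
  rcases hx with rfl | rfl | rfl | rfl | rfl | rfl | rfl
  · exact absurd rfl hx3
  · exact ONCore.exists_noNorm_three (fun _ _ _ _ => S0000.result) OrdDiv.table
  · exact absurd hx2 (by norm_num)
  · exact ONCore.exists_noNorm_seven
  · exact absurd hx2 (by norm_num)
  · exact absurd hx2 (by norm_num)
  · exact absurd hx2 (by norm_num)

/-- **The row `O'N`.** -/
theorem row_on {K : Type u} [Group K] (h : Spor.IsoON K) {p : ℕ} [Fact p.Prime] (hp2 : p ≠ 2) : Row p K := by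
  obtain ⟨e⟩ := h
  exact (row_model hp2).congr e.symm

end Cfsg.Agent.H296.RowON
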